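import Mathlib
import Cfsg.Agent.Lib.GenStruct.TwoPrimeCycles.Degree
import Cfsg.Agent.S0713

/-! Groups generated by elements of two large prime orders in an alternating group. -/

set_option autoImplicit false

namespace Cfsg.Agent.Lib.GenStruct.TwoPrimeCycles

open Equiv MulAction
open scoped Pointwise

variable {α : Type*} [Fintype α] [DecidableEq α]

theorem nonempty_equiv_alternating (K : Subgroup (Perm α)) (hK : K = alternatingGroup α) {d : ℕ}
    (hd : Fintype.card α = d) : Nonempty (K ≃* alternatingGroup (Fin d)) :=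
  ⟨(MulEquiv.subgroupCongr hK).trans (Equiv.altCongrHom (Fintype.equivFinOfCardEq hd))⟩

theorem sign_eq_one_of_odd {G : Type*} [Group G] (f : G →* ℤˣ) {g : G} {n : ℕ} (hn : Odd n) (h : g ^ n = 1) :
    f g = 1 := by
  obtain ⟨m, rfl⟩ := hn
  have : f g ^ (2 * m + 1) = 1 := by rw [← map_pow, h, map_one]
  rwa [pow_succ, pow_mul, Int.units_sq, one_pow, one_mul] at this

/-- Degree six, generated by a fixed-point-free element of order three and a 5-cycle. -/
theorem degree_six (hα : Fintype.card α = 6) (K : Subgroup (Perm α)) (htr : IsPretransitive K α)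
    (hev : K ≤ alternatingGroup α) {x y : Perm α} (hK : K = Subgroup.closure {x, y})
    (hx : orderOf x = 3) (hxs : x.support.card = 6) (hy : orderOf y = 5) (hys : y.support.card = 5) :
    ∃ d, 5 ≤ d ∧ Nonempty (K ≃* alternatingGroup (Fin d)) := by
  classical
  haveI := htr
  haveI : Nontrivial α := Fintype.one_lt_card_iff_nontrivial.1 (by omega)
  set A := alternatingGroup α with hA
  haveI : IsSimpleGroup A := alternatingGroup.isSimpleGroup (by rw [Nat.card_eq_fintype_card, hα]; norm_num)
  have hAcard : Nat.card A = 360 := by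
    have h := two_mul_nat_card_alternatingGroup (α := α)
    rw [Nat.card_perm, Nat.card_eq_fintype_card (α := α), hα] at h
    have h' : 2 * Nat.card A = 720 := h
    omega
  have hxK : x ∈ K := hK ▸ Subgroup.subset_closure (Or.inl rfl)
  have hyK : y ∈ K := hK ▸ Subgroup.subset_closure (Or.inr rfl)
  set L := K.subgroupOf A with hL
  have hLcard : Nat.card L = Nat.card K := Nat.card_congr (Subgroup.subgroupOfEquivOfLe hev).toEquiv
  have hmul := L.card_mul_index
  rw [hAcard, hLcard] at hmul
  have h6 : 6 ∣ Nat.card K := by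
    obtain ⟨a⟩ : Nonempty α := inferInstance
    have h := MulAction.index_stabilizer_of_transitive K a
    rw [Nat.card_eq_fintype_card, hα] at h
    exact h ▸ Subgroup.index_dvd_card _
  have h5 : 5 ∣ Nat.card K := by
    rw [← hy, ← Subgroup.orderOf_mk y hyK]; exact orderOf_dvd_natCard _
  -- order thirty is impossible
  have h30 : Nat.card K ≠ 30 := by
    intro h30
    haveI : Fact (Nat.Prime 5) := ⟨by norm_num⟩
    haveI : Fintype K := Fintype.ofFinite K
    let σ : K →* ℤˣ := Perm.sign.comp (MulAction.toPermHom K K)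
    haveI : Fact (Nat.Prime 2) := ⟨by norm_num⟩
    obtain ⟨t, ht⟩ := exists_prime_orderOf_dvd_card' (G := K) 2 (h30 ▸ by norm_num)
    have hσt : σ t = -1 := by
      show Perm.sign (MulAction.toPermHom K K t) = -1
      set T := MulAction.toPermHom K K t
      have hT2 : T ^ 2 = 1 := by rw [← map_pow, ← ht, pow_orderOf_eq_one, map_one]
      have hT1 : T ≠ 1 := fun h => by
        have h' : t * 1 = 1 := Perm.congr_fun h 1
        rw [mul_one] at h'
        rw [h', orderOf_one] at ht
        norm_num at ht
      have hsupp : T.support = Finset.univ := Finset.eq_univ_iff_forall.2 fun k => Perm.mem_support.2 fun h => by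
        have h' : t * k = k := h
        rw [mul_eq_right] at h'
        rw [h', orderOf_one] at ht
        norm_num at ht
      obtain ⟨m, hm⟩ := Perm.cycleType_prime_order (σ := T) (by rw [orderOf_eq_prime hT2 hT1]; norm_num)
      rw [orderOf_eq_prime hT2 hT1] at hm
      have hsum := T.sum_cycleType
      rw [hm, hsupp, Finset.card_univ, ← Nat.card_eq_fintype_card, h30, Multiset.sum_replicate, smul_eq_mul] at hsum
      rw [Perm.sign_of_cycleType, hm, Multiset.sum_replicate, Multiset.card_replicate, smul_eq_mul,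
        show m + 1 = 15 by omega]
      decide
    have hker : ∀ k : K, σ k = 1 := by
      have h1 : σ ⟨x, hxK⟩ = 1 := sign_eq_one_of_odd σ (n := 3) ⟨1, rfl⟩ (Subtype.ext (by
        rw [Subgroup.coe_pow, ← hx]; exact pow_orderOf_eq_one x))
      have h2 : σ ⟨y, hyK⟩ = 1 := sign_eq_one_of_odd σ (n := 5) ⟨2, rfl⟩ (Subtype.ext (by
        rw [Subgroup.coe_pow, ← hy]; exact pow_orderOf_eq_one y))
      have hle : K ≤ σ.ker.map K.subtype := by
        conv_lhs => rw [hK]
        rw [Subgroup.closure_le]
        rintro z (rfl | rfl)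
        · exact ⟨⟨z, hxK⟩, h1, rfl⟩
        · exact ⟨⟨z, hyK⟩, h2, rfl⟩
      intro k
      obtain ⟨k', hk', he⟩ := hle k.2
      rwa [← Subtype.ext he]
    exact absurd ((hker t).symm.trans hσt) (by decide)
  -- the index is one or six
  have hidx : L.index = 1 ∨ L.index = 6 := by
    have hd : L.index ∣ 12 := by
      have h30' : 30 ∣ Nat.card K := by omega
      obtain ⟨c, hc⟩ := h30'
      rw [hc] at hmul
      exact Dvd.intro_left c (by linarith : c * L.index = 12)
    by_cases hL1 : L.index = 1
    · exact Or.inl hL1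
    have hge : 6 ≤ L.index := by
      by_contra hlt
      push Not at hlt
      let φ := MulAction.toPermHom A (A ⧸ L)
      rcases φ.normal_ker.eq_bot_or_eq_top with h | h
      · have hc := Nat.card_le_card_of_injective _ ((MonoidHom.ker_eq_bot_iff φ).1 h)
        rw [hAcard, Nat.card_perm, ← Subgroup.index_eq_card] at hc
        exact absurd (hc.trans (Nat.factorial_le (Nat.le_of_lt_succ hlt))) (by norm_num [Nat.factorial])
      · refine hL1 (Subgroup.index_eq_one.2 (eq_top_iff.2 fun a _ => ?_))
        have ha : φ a = 1 := MonoidHom.mem_ker.1 (h ▸ Subgroup.mem_top a)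
        have h' : a • ((1 : A) : A ⧸ L) = ((1 : A) : A ⧸ L) := Perm.congr_fun ha ((1 : A) : A ⧸ L)
        rw [MulAction.Quotient.smul_coe, smul_eq_mul, mul_one, QuotientGroup.eq] at h'
        simpa using h'
    have hne12 : L.index ≠ 12 := fun h12 => h30 (by rw [h12] at hmul; omega)
    have := Nat.le_of_dvd (by norm_num) hd
    interval_cases hi : L.index <;> omega
  rcases hidx with h1 | h6'
  · refine ⟨6, by norm_num, nonempty_equiv_alternating K ?_ hα⟩
    exact le_antisymm hev (Subgroup.subgroupOf_eq_top.1 (Subgroup.index_eq_one.1 h1))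
  · -- action on the five other cosets
    set base : A ⧸ L := ((1 : A) : A ⧸ L)
    haveI : Fintype (A ⧸ L) := Fintype.ofFinite _
    have hbase : ∀ (l : L) (c : A ⧸ L), ((l : A) • c ≠ base) ↔ c ≠ base := by
      intro l c
      have hfix : (l : A) • base = base := by
        rw [MulAction.Quotient.smul_coe, smul_eq_mul, mul_one, QuotientGroup.eq, mul_one]
        exact inv_mem l.2
      rw [not_iff_not]
      constructor
      · intro h; exact MulAction.injective (l : A) (h.trans hfix.symm)
      · rintro rfl; exact hfix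
    let ψ : L →* Perm {c : A ⧸ L // c ≠ base} :=
      { toFun := fun l => (MulAction.toPermHom A (A ⧸ L) (l : A)).subtypePerm (fun c => hbase l c)
        map_one' := Perm.ext fun c => Subtype.ext (one_smul A c.1)
        map_mul' := fun a b => Perm.ext fun c => Subtype.ext (mul_smul (a : A) (b : A) c.1) }
    have hψinj : Function.Injective ψ := by
      refine (injective_iff_map_eq_one ψ).2 fun l hl => Subtype.ext ?_
      let φ := MulAction.toPermHom A (A ⧸ L)
      have hker : φ.ker = ⊥ := by
        refine φ.normal_ker.eq_bot_or_eq_top.resolve_right fun h => ?_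
        have h1 : L.index = 1 := by
          refine Subgroup.index_eq_one.2 (eq_top_iff.2 fun a _ => ?_)
          have ha : φ a = 1 := MonoidHom.mem_ker.1 (h ▸ Subgroup.mem_top a)
          have h' : a • ((1 : A) : A ⧸ L) = ((1 : A) : A ⧸ L) := Perm.congr_fun ha ((1 : A) : A ⧸ L)
          rw [MulAction.Quotient.smul_coe, smul_eq_mul, mul_one, QuotientGroup.eq] at h'
          simpa using h'
        omega
      refine (MonoidHom.ker_eq_bot_iff φ).1 hker (Perm.ext fun c => ?_)
      rw [show (φ ((1 : L) : A)) c = c from one_smul A c]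
      by_cases hc : c = base
      · subst hc
        exact (not_iff_not.1 (hbase l base)).2 rfl
      · exact congrArg Subtype.val (Perm.congr_fun hl ⟨c, hc⟩)
    have hcard5 : Fintype.card {c : A ⧸ L // c ≠ base} = 5 := by
      rw [Fintype.card_subtype_compl, Fintype.card_subtype_eq, ← Nat.card_eq_fintype_card, ← Subgroup.index_eq_card, h6']
    have hr : ψ.range = alternatingGroup {c : A ⧸ L // c ≠ base} := by
      apply Equiv.Perm.eq_alternatingGroup_of_index_eq_two
      have hm := ψ.range.card_mul_index
      rw [Nat.card_congr (MonoidHom.ofInjective hψinj).toEquiv.symm, hLcard, Nat.card_perm, Nat.card_eq_fintype_card (α := {c : A ⧸ L // c ≠ base}), hcard5] at hm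
      rw [h6'] at hmul
      have hK60 : Nat.card K = 60 := by omega
      rw [hK60] at hm
      norm_num [Nat.factorial] at hm
      omega
    obtain ⟨e⟩ := nonempty_equiv_alternating ψ.range hr hcard5
    exact ⟨5, le_rfl, ⟨(Subgroup.subgroupOfEquivOfLe hev).symm.trans ((MonoidHom.ofInjective hψinj).trans e)⟩⟩

/-- transfer of the special-degree results along a relabelling -/
theorem alternating_le_of_model {n : ℕ} (X : Perm (Fin n))
    (hmodel : ∀ H : Subgroup (Perm (Fin n)), IsPretransitive H (Fin n) → (∀ h ∈ H, Perm.sign h = 1) → X ∈ H →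
      alternatingGroup (Fin n) ≤ H)
    (hX : X.IsCycle) (hα : Fintype.card α = n) (K : Subgroup (Perm α)) (htr : IsPretransitive K α)
    (hev : K ≤ alternatingGroup α) {x : Perm α} (hx : x ∈ K) (hxc : x.IsCycle) (hxs : x.support.card = X.support.card) :
    alternatingGroup α ≤ K := by
  let e0 : α ≃ Fin n := Fintype.equivFinOfCardEq hα
  set x0 := e0.permCongr x with hx0
  have hct : x0.cycleType = x.cycleType := by
    have hcx := hxc.cycleType
    have hs : x0.support = x.support.map e0.toEmbedding := by
      ext a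
      simp only [Perm.mem_support, hx0, Equiv.permCongr_apply, Finset.mem_map_equiv, ne_eq]
      rw [← Equiv.eq_symm_apply]
    have hc : x0.IsCycle := by
      obtain ⟨a, ha, hb⟩ := hxc
      refine ⟨e0 a, by simpa [hx0, Equiv.permCongr_apply] using ha, fun b hb' => ?_⟩
      obtain ⟨i, hi⟩ := hb (y := e0.symm b) (fun h => hb' (by
        rw [hx0, Equiv.permCongr_apply, h, Equiv.apply_symm_apply]))
      refine ⟨i, ?_⟩
      rw [hx0, ← Equiv.permCongrHom_coe, ← map_zpow, Equiv.permCongrHom_coe, Equiv.permCongr_apply,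
        Equiv.symm_apply_apply, hi, Equiv.apply_symm_apply]
    rw [hcx, hc.cycleType, hs, Finset.card_map]
  have hconj : IsConj x0 X := by
    rw [Equiv.Perm.isConj_iff_cycleType_eq, hct, hxc.cycleType, hX.cycleType, hxs]
  obtain ⟨c, hc⟩ := isConj_iff.1 hconj
  let e : α ≃ Fin n := e0.trans c
  let f : Perm α ≃* Perm (Fin n) := e.permCongrHom
  have hfx : f x = X := by
    rw [← hc]
    refine Perm.ext fun a => ?_
    simp [f, e, hx0, Equiv.permCongr_apply, Perm.mul_apply, Perm.inv_def]
  have hsign : ∀ g : Perm α, Perm.sign (f g) = Perm.sign g := fun g => Perm.sign_permCongr e g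
  have h := hmodel (K.map f.toMonoidHom) ⟨fun a b => by
      obtain ⟨⟨k, hk⟩, hka⟩ := htr.exists_smul_eq (e.symm a) (e.symm b)
      refine ⟨⟨f k, k, hk, rfl⟩, ?_⟩
      show e (k (e.symm a)) = b
      rw [show k (e.symm a) = e.symm b from hka, Equiv.apply_symm_apply]⟩
    (by rintro _ ⟨k, hk, rfl⟩; exact (hsign k).trans (hev hk))
    ⟨x, hx, hfx⟩
  intro g hg
  obtain ⟨k, hk, hkg⟩ := h (x := f g) ((hsign g).trans hg)
  exact f.injective hkg ▸ hk

/-- admissible pairs of primes -/
def GoodPair (p q : ℕ) : Prop :=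
  p + 3 ≤ q ∨ (p = 3 ∧ q = 5) ∨ (p = 5 ∧ q = 7) ∨ (p = 11 ∧ q = 13)

theorem two_prime_generation (p q : ℕ) (hp : p.Prime) (hq : q.Prime) (hm : Fintype.card α ≤ 2 * p)
    (hpq : p < q) (hq5 : 5 ≤ q) (hgood : GoodPair p q) (hdbl : Fintype.card α = 2 * p → q + 3 ≤ 2 * p ∨ p = 3)
    {x y : Perm α} (hxe : x ∈ alternatingGroup α) (hye : y ∈ alternatingGroup α) (hx : orderOf x = p) (hy : orderOf y = q) :
    ∃ d : ℕ, 5 ≤ d ∧ Nonempty (Subgroup.closure ({x, y} : Set (Perm α)) ≃* alternatingGroup (Fin d)) := by
  classical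
  have hycyc : y.IsCycle := Perm.isCycle_of_prime_order (hy ▸ hq) (by
    have h1 : y.support.card ≤ Fintype.card α := Finset.card_le_univ _
    rw [hy]; omega)
  have hys : y.support.card = q := by rw [← hycyc.orderOf, hy]
  obtain ⟨k, hk⟩ := Perm.cycleType_prime_order (σ := x) (hx ▸ hp)
  have hxs : x.support.card = (k + 1) * p := by
    have := x.sum_cycleType
    rw [hk, Multiset.sum_replicate, smul_eq_mul, hx] at this
    exact this.symm
  have hxle : x.support.card ≤ Fintype.card α := Finset.card_le_univ _
  have hk1 : k ≤ 1 := by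
    by_contra hgt
    push Not at hgt
    have h3p : 3 * p ≤ (k + 1) * p := Nat.mul_le_mul_right p (by omega)
    have := hp.pos
    omega
  set Δ := x.support ∪ y.support with hΔ
  set H := Subgroup.closure ({x, y} : Set (Perm α)) with hH
  have hxH : x ∈ H := Subgroup.subset_closure (Or.inl rfl)
  have hyH : y ∈ H := Subgroup.subset_closure (Or.inr rfl)
  have hfix : ∀ h ∈ H, ∀ a, a ∉ Δ → h a = a := by
    intro h hh a ha
    have hle : H ≤ stabilizer (Perm α) a := (Subgroup.closure_le _).2 (by
      rintro g (rfl | rfl)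
      · exact Perm.notMem_support.1 fun h => ha (Finset.mem_union_left _ h)
      · exact Perm.notMem_support.1 fun h => ha (Finset.mem_union_right _ h))
    exact hle hh
  have hmap : ∀ h ∈ H, ∀ a, h a ∈ Δ ↔ a ∈ Δ := by
    intro h hh a
    constructor
    · intro hha; by_contra ha; rw [hfix h hh a ha] at hha; exact ha hha
    · intro ha; by_contra hha; exact hha (by rw [h.injective (hfix h hh _ hha)]; exact ha)
  let f : H →* Perm {a // a ∈ Δ} :=
    { toFun := fun h => (h : Perm α).subtypePerm (hmap h h.2)
      map_one' := Perm.ext fun a => Subtype.ext rfl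
      map_mul' := fun g h => Perm.ext fun a => Subtype.ext rfl }
  have hfinj : Function.Injective f := by
    refine (injective_iff_map_eq_one f).2 fun h hh => Subtype.ext (Perm.ext fun a => ?_)
    by_cases ha : a ∈ Δ
    · exact congrArg Subtype.val (Perm.congr_fun hh ⟨a, ha⟩)
    · exact hfix h h.2 a ha
  set K := f.range with hK
  set X := f ⟨x, hxH⟩ with hX
  set Y := f ⟨y, hyH⟩ with hY
  have hXK : X ∈ K := ⟨_, rfl⟩
  have hYK : Y ∈ K := ⟨_, rfl⟩
  have hXs : X.support.card = x.support.card := by
    refine Finset.card_bij (fun a _ => a.1) (fun a ha => ?_) (fun a _ b _ h => Subtype.ext h) fun b hb => ?_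
    · rw [Perm.mem_support] at ha ⊢; exact fun h => ha (Subtype.ext h)
    · exact ⟨⟨b, Finset.mem_union_left _ hb⟩, Perm.mem_support.2 fun h => Perm.mem_support.1 hb (congrArg Subtype.val h), rfl⟩
  have hYs : Y.support.card = q := by
    rw [← hys]
    refine Finset.card_bij (fun a _ => a.1) (fun a ha => ?_) (fun a _ b _ h => Subtype.ext h) fun b hb => ?_
    · rw [Perm.mem_support] at ha ⊢; exact fun h => ha (Subtype.ext h)
    · exact ⟨⟨b, Finset.mem_union_right _ hb⟩, Perm.mem_support.2 fun h => Perm.mem_support.1 hb (congrArg Subtype.val h), rfl⟩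
  have hXo : orderOf X = p := by rw [hX, orderOf_injective f hfinj, Subgroup.orderOf_mk, hx]
  have hYo : orderOf Y = q := by rw [hY, orderOf_injective f hfinj, Subgroup.orderOf_mk, hy]
  have hYc : Y.IsCycle := Perm.isCycle_of_prime_order (hYo ▸ hq) (by rw [hYs, hYo]; omega)
  set d := Fintype.card {a // a ∈ Δ} with hd
  have hdΔ : d = Δ.card := Fintype.card_coe Δ
  have hdm : d ≤ Fintype.card α := hdΔ ▸ Finset.card_le_univ _
  have hdq : q ≤ d := by rw [hdΔ, ← hys]; exact Finset.card_le_card Finset.subset_union_right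
  have hdx : x.support.card ≤ d := by rw [hdΔ]; exact Finset.card_le_card Finset.subset_union_left
  have hKev : K ≤ alternatingGroup {a // a ∈ Δ} := by
    rintro _ ⟨h, rfl⟩
    show Perm.sign ((h : Perm α).subtypePerm (hmap h h.2)) = 1
    have hev' : Perm.sign (h : Perm α) = 1 :=
      (Subgroup.closure_le _).2 (by rintro g (rfl | rfl) <;> assumption : ({x, y} : Set (Perm α)) ⊆ alternatingGroup α) h.2
    convert (Perm.sign_subtypePerm (h : Perm α) (hmap h h.2) (fun a ha => by by_contra h'; exact ha (hfix h h.2 a h'))).trans hev' using 3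
  -- transitivity
  obtain ⟨b0, hb0⟩ : y.support.Nonempty := Finset.card_pos.1 (hys ▸ hq.pos)
  have hsupp : ∀ b ∈ y.support, ∃ i : ℕ, (y ^ i) b0 = b := fun b hb =>
    hycyc.exists_pow_eq (Perm.mem_support.1 hb0) (Perm.mem_support.1 hb)
  have hreach : ∀ a : {a // a ∈ Δ}, ∃ g : K, g • (⟨b0, Finset.mem_union_right _ hb0⟩ : {a // a ∈ Δ}) = a := by
    intro a
    by_cases ha : a.1 ∈ y.support
    · obtain ⟨i, hi⟩ := hsupp _ ha
      exact ⟨⟨f ((⟨y, hyH⟩ : H) ^ i), _, rfl⟩, Subtype.ext hi⟩
    · have hax : a.1 ∈ x.support := (Finset.mem_union.1 a.2).resolve_right ha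
      obtain ⟨j, hj⟩ : ∃ j : ℕ, (x ^ j) a.1 ∈ y.support := by
        by_contra hno
        push Not at hno
        have hinj : ((Finset.range p).image fun j => (x ^ j) a.1).card = p := by
          rw [Finset.card_image_of_injOn, Finset.card_range]
          intro i hi j hj hij
          rw [Finset.coe_range, Set.mem_Iio] at hi hj
          by_contra hne
          obtain ⟨i, j, hlt, hjp, hij⟩ : ∃ i j, i < j ∧ j < p ∧ (x ^ i) a.1 = (x ^ j) a.1 := by
            rcases Nat.lt_or_gt_of_ne hne with h | h
            exacts [⟨i, j, h, hj, hij⟩, ⟨j, i, h, hi, hij.symm⟩]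
          have h1 : (x ^ (j - i)) a.1 = a.1 := (x ^ i).injective (by
            rw [← Perm.mul_apply, ← pow_add, Nat.add_sub_cancel' hlt.le, hij])
          obtain ⟨m, hm'⟩ := exists_pow_eq_self_of_coprime (x := x) (n := j - i) (by
            rw [hx]; exact (hp.coprime_iff_not_dvd.2 (Nat.not_dvd_of_pos_of_lt (by omega) (by omega))).symm)
          refine Perm.mem_support.1 hax ?_
          conv_lhs => rw [← hm']
          exact Perm.pow_apply_eq_self_of_apply_eq_self h1 m
        have hdis : Disjoint ((Finset.range p).image fun j => (x ^ j) a.1) y.support := by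
          rw [Finset.disjoint_left]
          intro b hb
          obtain ⟨j, -, rfl⟩ := Finset.mem_image.1 hb
          exact hno j
        have := Finset.card_le_univ (((Finset.range p).image fun j => (x ^ j) a.1) ∪ y.support)
        rw [Finset.card_union_of_disjoint hdis, hinj, hys] at this
        omega
      obtain ⟨i, hi⟩ := hsupp _ hj
      exact ⟨⟨f (((⟨x, hxH⟩ : H) ^ j)⁻¹ * (⟨y, hyH⟩ : H) ^ i), _, rfl⟩, Subtype.ext (by
        show ((x ^ j)⁻¹ * y ^ i) b0 = a.1
        rw [Perm.mul_apply, hi, Perm.inv_eq_iff_eq])⟩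
  have htr : IsPretransitive K {a // a ∈ Δ} := ⟨fun a b => by
    obtain ⟨g, hg⟩ := hreach a
    obtain ⟨g', hg'⟩ := hreach b
    exact ⟨g' * g⁻¹, by rw [mul_smul, ← hg, inv_smul_smul, hg']⟩⟩
  -- primitivity
  have hprim : IsPreprimitive K {a // a ∈ Δ} := by
    haveI := htr
    refine IsPreprimitive.of_isTrivialBlock_base ⟨b0, Finset.mem_union_right _ hb0⟩ fun {B} haB hB => ?_
    set b : {a // a ∈ Δ} := ⟨b0, Finset.mem_union_right _ hb0⟩
    let Yk : K := ⟨Y, hYK⟩
    by_cases hsub : B.Subsingleton
    · exact Or.inl hsub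
    right
    have hBfix : Yk • B = B := by
      by_contra hne
      -- all q translates are distinct blocks
      have hinj : Function.Injective (fun ic : Fin q × B => (Yk ^ ic.1.1) • (ic.2 : {a // a ∈ Δ})) := by
        rintro ⟨i, c⟩ ⟨j, c'⟩ h
        have hij : (Yk ^ i.1) • B = (Yk ^ j.1) • B := by
          by_contra h'
          exact Set.disjoint_left.1 (hB h') (Set.smul_mem_smul_set c.2) (by
            simp only at h; rw [h]; exact Set.smul_mem_smul_set c'.2)
        obtain rfl : i = j := by
          by_contra hne'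
          apply hne
          obtain ⟨i, j, hlt, hij⟩ : ∃ i j : Fin q, i.1 < j.1 ∧ (Yk ^ i.1) • B = (Yk ^ j.1) • B := by
            rcases Nat.lt_or_gt_of_ne (fun e => hne' (Fin.ext e)) with h | h
            exacts [⟨i, j, h, hij⟩, ⟨j, i, h, hij.symm⟩]
          have h1 : (Yk ^ (j.1 - i.1)) • B = B := by
            rw [← Nat.add_sub_cancel' hlt.le, pow_add, mul_smul, smul_left_cancel_iff] at hij
            exact hij.symm
          obtain ⟨m, hm'⟩ := exists_pow_eq_self_of_coprime (x := Yk) (n := j.1 - i.1) (by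
            rw [← Subgroup.orderOf_coe, hYo]
            exact (hq.coprime_iff_not_dvd.2 (Nat.not_dvd_of_pos_of_lt (by omega) (by omega))).symm)
          have hmem : (Yk ^ (j.1 - i.1)) ^ m ∈ stabilizer K B := pow_mem (mem_stabilizer_iff.2 h1) m
          rw [hm'] at hmem
          exact mem_stabilizer_iff.1 hmem
        simp only [smul_left_cancel_iff] at h
        exact Prod.ext rfl (Subtype.ext h)
      have hc := Nat.card_le_card_of_injective _ hinj
      rw [Nat.card_prod, Nat.card_eq_fintype_card (α := Fin q), Fintype.card_fin,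
        Nat.card_eq_fintype_card (α := {a // a ∈ Δ})] at hc
      have h2 : 2 ≤ Nat.card B := by
        rw [Nat.card_coe_set_eq]
        exact (Set.one_lt_ncard (Set.toFinite B)).2 (Set.not_subsingleton_iff.1 hsub)
      have := Nat.mul_le_mul_left q h2
      omega
    have hpowB : ∀ i : ℕ, (Yk ^ i) • b ∈ B := fun i => by
      have hs : Yk ^ i ∈ stabilizer K B := pow_mem (mem_stabilizer_iff.2 hBfix) i
      rw [← mem_stabilizer_iff.1 hs]
      exact Set.smul_mem_smul_set haB
    have hbig : q ≤ B.ncard := by
      rw [← hys, ← Nat.card_coe_set_eq, ← Fintype.card_coe, ← Nat.card_eq_fintype_card]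
      refine Nat.card_le_card_of_injective (fun a => (⟨⟨a.1, Finset.mem_union_right _ a.2⟩, ?_⟩ : B)) ?_
      · obtain ⟨i, hi⟩ := hsupp _ a.2
        have := hpowB i
        have e : (Yk ^ i) • b = (⟨a.1, Finset.mem_union_right _ a.2⟩ : {a // a ∈ Δ}) := Subtype.ext (by
          rw [← hi]
          have : ∀ i : ℕ, (((Yk ^ i : K) : Perm {a // a ∈ Δ}) b).1 = (y ^ i) b0 := by
            intro i
            induction i with
            | zero => rfl
            | succ i ih => rw [pow_succ', pow_succ', Subgroup.coe_mul, Perm.mul_apply, Perm.mul_apply, ← ih]; rfl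
          exact this i)
        rwa [e] at this
      · intro a c h
        exact Subtype.ext (congrArg (fun t : B => t.1.1) h)
    refine hB.eq_univ_of_card_lt ?_
    rw [Nat.card_eq_fintype_card]
    omega
  have hfin : alternatingGroup {a // a ∈ Δ} ≤ K → ∃ d : ℕ, 5 ≤ d ∧ Nonempty (H ≃* alternatingGroup (Fin d)) := by
    intro hle
    obtain ⟨e⟩ := nonempty_equiv_alternating K (le_antisymm hKev hle) rfl
    exact ⟨d, hq5.trans hdq, ⟨(MonoidHom.ofInjective hfinj).trans e⟩⟩
  by_cases hyJ : q + 3 ≤ d
  · exact hfin (Cfsg.Agent.S0713.result K hprim hq (hq5.trans hdq) hyJ hYc hYs hYK)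
  rcases Nat.le_one_iff_eq_zero_or_eq_one.1 hk1 with rfl | rfl
  · have hXs' : X.support.card = p := by rw [hXs, hxs, zero_add, one_mul]
    have hXc : X.IsCycle := Perm.isCycle_of_prime_order (hXo ▸ hp) (by rw [hXs', hXo]; have := hp.pos; omega)
    by_cases hxJ : p + 3 ≤ d
    · exact hfin (Cfsg.Agent.S0713.result K hprim hp (hq5.trans hdq) hxJ hXc hXs' hXK)
    rcases hgood with h | ⟨rfl, rfl⟩ | ⟨rfl, rfl⟩ | ⟨rfl, rfl⟩
    · omega
    · exact hfin (Perm.alternatingGroup_le_of_isPreprimitive_of_isThreeCycle_mem hprim (card_support_eq_three_iff.1 hXs') hXK)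
    · refine hfin (alternating_le_of_model X7 alternating_le_seven ?_ (show d = 7 by omega) K htr hKev hXK hXc ?_)
      · exact Perm.isCycle_of_prime_order (by rw [orderOf_eq_prime (p := 5) (hp := ⟨by norm_num⟩) (Perm.ext (by decide)) (fun h => absurd (Perm.congr_fun h 0) (by decide))]; norm_num) (by
          rw [orderOf_eq_prime (p := 5) (hp := ⟨by norm_num⟩) (Perm.ext (by decide)) (fun h => absurd (Perm.congr_fun h 0) (by decide))]; decide)
      · rw [hXs']; decide
    · refine hfin (alternating_le_of_model X13 alternating_le_thirteen ?_ (show d = 13 by omega) K htr hKev hXK hXc ?_)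
      · exact Perm.isCycle_of_prime_order (by rw [orderOf_eq_prime (p := 11) (hp := ⟨by norm_num⟩) (Perm.ext (by decide)) (fun h => absurd (Perm.congr_fun h 0) (by decide))]; norm_num) (by
          rw [orderOf_eq_prime (p := 11) (hp := ⟨by norm_num⟩) (Perm.ext (by decide)) (fun h => absurd (Perm.congr_fun h 0) (by decide))]; decide)
      · rw [hXs']; decide
  · have hd2 : d = 2 * p := by omega
    rcases hdbl (by omega) with h | rfl
    · omega
    · -- p = 3, two three-cycles
      have hq' : q = 5 := by
        have h1 : q ≤ 6 := by omega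
        interval_cases q
        · rfl
        · exact absurd hq (by norm_num)
      subst hq'
      have hKgen : K = Subgroup.closure {X, Y} := by
        rw [hK, MonoidHom.range_eq_map, show ({X, Y} : Set _) = f '' {⟨x, hxH⟩, ⟨y, hyH⟩} by rw [Set.image_pair],
          ← MonoidHom.map_closure]
        congr 1
        apply Subgroup.map_injective H.subtype_injective
        rw [MonoidHom.map_closure, Set.image_pair, ← MonoidHom.range_eq_map, Subgroup.range_subtype]
        rfl
      obtain ⟨d', hd', ⟨e⟩⟩ := degree_six (show Fintype.card {a // a ∈ Δ} = 6 by omega) K htr hKev hKgen hXo (by omega) hYo hYs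
      exact ⟨d', hd', ⟨(MonoidHom.ofInjective hfinj).trans e⟩⟩

end Cfsg.Agent.Lib.GenStruct.TwoPrimeCycles
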