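import Mathlib

/-! Two well-separated primes in `(m / 2, m]`. -/

set_option autoImplicit false

namespace Cfsg.Agent.Lib.GenStruct.TwoPrimeCycles

open Nat Finset

theorem centralBinom_le_of_few_primes (n : ℕ) (n_large : 2 < n)
    (hfew : ((Finset.Ioc n (2 * n)).filter Nat.Prime).card ≤ 2) :
    centralBinom n ≤ (2 * n) ^ (Nat.sqrt (2 * n) + 2) * 4 ^ (2 * n / 3) := by
  have n_pos : 0 < n := (Nat.zero_le _).trans_lt n_large
  have n2_pos : 1 ≤ 2 * n := by omega
  let f x := x ^ n.centralBinom.factorization x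
  let S := {p ∈ Finset.range (2 * n / 3 + 1) | Nat.Prime p}
  let L := (Finset.Ioc n (2 * n)).filter Nat.Prime
  have hsplit : centralBinom n = (∏ x ∈ S, f x) * ∏ x ∈ L, f x := by
    rw [← Finset.prod_union]
    · refine (n.prod_pow_factorization_centralBinom).symm.trans (Finset.prod_subset ?_ ?_).symm
      · intro x hx
        rw [Finset.mem_range]
        rcases Finset.mem_union.1 hx with h | h
        · have := Finset.mem_range.1 (Finset.mem_filter.1 h).1; omega
        · have := (Finset.mem_Ioc.1 (Finset.mem_filter.1 h).1).2; omega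
      · intro x hx hxu
        rw [Finset.mem_range] at hx
        simp only [S, L, Finset.mem_union, Finset.mem_filter, Finset.mem_range, Finset.mem_Ioc, not_or] at hxu
        by_cases hp : x.Prime
        · have h1 : ¬ x < 2 * n / 3 + 1 := fun h => hxu.1 ⟨h, hp⟩
          have h2 : x ≤ n := by
            by_contra h
            exact hxu.2 ⟨⟨by omega, by omega⟩, hp⟩
          rw [factorization_centralBinom_of_two_mul_self_lt_three_mul n_large h2 (by omega), Nat.pow_zero]
        · rw [factorization_eq_zero_of_not_prime n.centralBinom hp, Nat.pow_zero]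
    · rw [Finset.disjoint_left]
      intro x h1 h2
      have := Finset.mem_range.1 (Finset.mem_filter.1 h1).1
      have := (Finset.mem_Ioc.1 (Finset.mem_filter.1 h2).1).1
      omega
  have hL : ∏ x ∈ L, f x ≤ (2 * n) ^ 2 := by
    refine (Finset.prod_le_prod' fun p _ => (pow_factorization_choose_le (by omega) : f p ≤ 2 * n)).trans ?_
    rw [Finset.prod_const]
    exact Nat.pow_le_pow_right n2_pos hfew
  have hS : ∏ x ∈ S, f x ≤ (2 * n) ^ Nat.sqrt (2 * n) * 4 ^ (2 * n / 3) := by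
    rw [← Finset.prod_filter_mul_prod_filter_not S (· ≤ Nat.sqrt (2 * n))]
    apply mul_le_mul'
    · refine (Finset.prod_le_prod' fun p _ => (pow_factorization_choose_le (by omega) : f p ≤ 2 * n)).trans ?_
      have : (Finset.Icc 1 (Nat.sqrt (2 * n))).card = Nat.sqrt (2 * n) := by rw [Nat.card_Icc, Nat.add_sub_cancel]
      rw [Finset.prod_const]
      refine pow_right_mono₀ n2_pos ((Finset.card_le_card fun x hx => ?_).trans this.le)
      obtain ⟨h1, h2⟩ := Finset.mem_filter.1 hx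
      exact Finset.mem_Icc.mpr ⟨(Finset.mem_filter.1 h1).2.one_lt.le, h2⟩
    · refine le_trans ?_ (primorial_le_four_pow (2 * n / 3))
      refine (Finset.prod_le_prod' fun p hp => (?_ : f p ≤ p)).trans ?_
      · obtain ⟨h1, h2⟩ := Finset.mem_filter.1 hp
        refine (pow_right_mono₀ (Finset.mem_filter.1 h1).2.one_lt.le ?_).trans (pow_one p).le
        exact Nat.factorization_choose_le_one (Nat.sqrt_lt'.mp <| not_le.1 h2)
      refine Finset.prod_le_prod_of_subset_of_one_le' (Finset.filter_subset _ _) ?_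
      exact fun p hp _ => (Finset.mem_filter.1 hp).2.one_lt.le
  calc centralBinom n = _ := hsplit
    _ ≤ (2 * n) ^ Nat.sqrt (2 * n) * 4 ^ (2 * n / 3) * (2 * n) ^ 2 := Nat.mul_le_mul hS hL
    _ = _ := by rw [pow_add]; ring

theorem seven_mul_add_one_le : ∀ t : ℕ, 7 ≤ t → 7 * (t + 1) + 1 ≤ 2 ^ t := by
  intro t ht
  induction t, ht using Nat.le_induction with
  | base => norm_num
  | succ t ht ih => rw [pow_succ]; omega

theorem main_inequality (n : ℕ) (hn : 1300 ≤ n) :
    n * ((2 * n) ^ (Nat.sqrt (2 * n) + 2) * 4 ^ (2 * n / 3)) ≤ 4 ^ n := by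
  obtain ⟨s, hsdef⟩ : ∃ s, s = Nat.sqrt (2 * n) := ⟨_, rfl⟩
  rw [← hsdef]
  have hs : 49 ≤ s := by rw [hsdef, Nat.le_sqrt]; omega
  have hlt : 2 * n < (s + 1) * (s + 1) := hsdef ▸ Nat.lt_succ_sqrt (2 * n)
  have hge : s * s ≤ 2 * n := hsdef ▸ Nat.sqrt_le (2 * n)
  obtain ⟨k, hk1, hk2⟩ : ∃ k, s + 1 ≤ 2 ^ k ∧ 7 * k ≤ s := by
    refine ⟨Nat.log 2 (s + 1) + 1, (Nat.lt_pow_succ_log_self (by norm_num) _).le, ?_⟩
    have h1 := Nat.pow_log_le_self 2 (x := s + 1) (by omega)
    rcases Nat.lt_or_ge (Nat.log 2 (s + 1)) 7 with h | h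
    · omega
    · have := seven_mul_add_one_le _ h; omega
  have h2n : 2 * n ≤ 2 ^ (2 * k) := by
    rw [two_mul k, pow_add]
    exact hlt.le.trans (Nat.mul_le_mul hk1 hk1)
  have hexp : 2 * k * (s + 3) + 2 * (2 * n / 3) * 1 ≤ 2 * n := by
    have h1 : 7 * (k * (s + 3)) ≤ s * (s + 3) := by
      rw [← mul_assoc]; exact Nat.mul_le_mul_right _ hk2
    have h3 : 6 * k * (s + 3) + 6 ≤ s * s := by nlinarith
    have h4 : 3 * (2 * n / 3) ≤ 2 * n := by omega
    nlinarith
  calc n * ((2 * n) ^ (s + 2) * 4 ^ (2 * n / 3))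
      ≤ (2 * n) * ((2 * n) ^ (s + 2) * 4 ^ (2 * n / 3)) := Nat.mul_le_mul_right _ (by omega)
    _ = (2 * n) ^ (s + 3) * 4 ^ (2 * n / 3) := by ring
    _ ≤ (2 ^ (2 * k)) ^ (s + 3) * 4 ^ (2 * n / 3) := Nat.mul_le_mul_right _ (Nat.pow_le_pow_left h2n _)
    _ = 2 ^ (2 * k * (s + 3) + 2 * (2 * n / 3) * 1) := by
      rw [show (4 : ℕ) = 2 ^ 2 by norm_num, ← pow_mul, ← pow_mul, ← pow_add, mul_one]
    _ ≤ 2 ^ (2 * n) := Nat.pow_le_pow_right (by norm_num) hexp
    _ = 4 ^ n := by rw [show (4 : ℕ) = 2 ^ 2 by norm_num, ← pow_mul]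

/-- Two primes in `(m / 2, m]` at distance at least three. -/
theorem exists_separated_primes (m : ℕ) (hm : 17 ≤ m) :
    ∃ p q : ℕ, p.Prime ∧ q.Prime ∧ m < 2 * p ∧ p + 3 ≤ q ∧ q ≤ m := by
  rcases Nat.lt_or_ge m 2746 with h | h
  · have : (17 ≤ m ∧ m < 2 * 13) ∨ (23 ≤ m ∧ m < 2 * 19) ∨ (37 ≤ m ∧ m < 2 * 31) ∨
        (59 ≤ m ∧ m < 2 * 53) ∨ (101 ≤ m ∧ m < 2 * 97) ∨ (191 ≤ m ∧ m < 2 * 181) ∨
        (359 ≤ m ∧ m < 2 * 353) ∨ (701 ≤ m ∧ m < 2 * 691) ∨ (1381 ≤ m ∧ m < 2 * 1373) := by omega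
    rcases this with h | h | h | h | h | h | h | h | h
    · exact ⟨13, 17, by norm_num, by norm_num, h.2, by norm_num, h.1⟩
    · exact ⟨19, 23, by norm_num, by norm_num, h.2, by norm_num, h.1⟩
    · exact ⟨31, 37, by norm_num, by norm_num, h.2, by norm_num, h.1⟩
    · exact ⟨53, 59, by norm_num, by norm_num, h.2, by norm_num, h.1⟩
    · exact ⟨97, 101, by norm_num, by norm_num, h.2, by norm_num, h.1⟩
    · exact ⟨181, 191, by norm_num, by norm_num, h.2, by norm_num, h.1⟩
    · exact ⟨353, 359, by norm_num, by norm_num, h.2, by norm_num, h.1⟩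
    · exact ⟨691, 701, by norm_num, by norm_num, h.2, by norm_num, h.1⟩
    · exact ⟨1373, 1381, by norm_num, by norm_num, h.2, by norm_num, h.1⟩
  · by_contra hno
    push Not at hno
    set n := m / 2 with hn
    have hclose : ∀ p ∈ (Finset.Ioc n (2 * n)).filter Nat.Prime, ∀ q ∈ (Finset.Ioc n (2 * n)).filter Nat.Prime, q < p + 3 := by
      intro p hp q hq
      simp only [Finset.mem_filter, Finset.mem_Ioc] at hp hq
      by_contra hge
      have := hno p q hp.2 hq.2 (by omega) (by omega)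
      omega
    have hfew : ((Finset.Ioc n (2 * n)).filter Nat.Prime).card ≤ 2 := by
      rcases ((Finset.Ioc n (2 * n)).filter Nat.Prime).eq_empty_or_nonempty with he | hne
      · rw [he, Finset.card_empty]; exact Nat.zero_le _
      obtain ⟨a, ha, hmin⟩ := Finset.exists_min_image _ id hne
      refine (Finset.card_le_card (t := {a, a + 2}) fun b hb => ?_).trans Finset.card_le_two
      have h1 : a ≤ b := hmin b hb
      have h2 := hclose a ha b hb
      simp only [Finset.mem_filter, Finset.mem_Ioc] at ha hb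
      have hodd : a % 2 = 1 ∧ b % 2 = 1 := ⟨(ha.2.eq_two_or_odd).resolve_left (by omega), (hb.2.eq_two_or_odd).resolve_left (by omega)⟩
      simp only [Finset.mem_insert, Finset.mem_singleton]
      omega
    have h1 := centralBinom_le_of_few_primes n (by omega) hfew
    have h2 := main_inequality n (by omega)
    have h3 := Nat.four_pow_lt_mul_centralBinom n (by omega)
    exact absurd ((Nat.mul_le_mul_left n h1).trans h2) (not_le.2 h3)

end Cfsg.Agent.Lib.GenStruct.TwoPrimeCycles
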